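import Cfsg.Agent.H790.ExcAb
import Cfsg.Agent.H805.EPX.Rows
import Cfsg.Agent.H58.HeOdd
import Cfsg.Agent.H51.ONSeven
import Cfsg.Agent.S1699

/-!
# S5745, sporadic rows killed by the Sylow 7-subgroup (helper833)

The `7`-subgroups of `E₆(q)`, `E₇(q)` (`q` not divisible by `7`, and `q ≢ ± 1 mod 7` for `E₇`) are abelian
(`H790.ExcAb`); the Held group and the O'Nan group contain `7^{1+2}`.

* `not_hom` : no injective homomorphism `T → G` if `NA 7 T`, `AbP 7 G`;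
* `row` : the same in the form `NoRow`;
* `e6_He`, `e6_ON` (all `q` prime to `7`), `e7_He`, `e7_ON` (`q mod 7 ∉ {0, 1, 6}`);
* `e7_2_He`, `e7_2_ON`, `e6_2_He`, `e6_4_ON` : the rows of `H805.EPX.Rows`.
-/

set_option autoImplicit false

namespace Cfsg.Agent.H833.EPX

open Cfsg Subgroup Cfsg.Agent.H790.ExcAb Cfsg.Agent.H284 Cfsg.Agent.H209.EPX Cfsg.Agent.H805.EPX
open scoped commutatorElement

/-- two elements of order `p` with a central commutator different from one -/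
def NA (p : ℕ) (T : Type*) [Group T] : Prop :=
  ∃ x y : T, x ^ p = 1 ∧ y ^ p = 1 ∧ ⁅x, y⁆ * x = x * ⁅x, y⁆ ∧ ⁅x, y⁆ * y = y * ⁅x, y⁆ ∧ ⁅x, y⁆ ≠ 1

theorem NA.of_injective {p : ℕ} {T G : Type*} [Group T] [Group G] (h : NA p T) (f : T →* G)
    (hf : Function.Injective f) : NA p G := by
  obtain ⟨x, y, h1, h2, h3, h4, h5⟩ := h
  refine ⟨f x, f y, by rw [← map_pow, h1, map_one], by rw [← map_pow, h2, map_one], ?_, ?_, ?_⟩
  · rw [← map_commutatorElement, ← map_mul, ← map_mul, h3]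
  · rw [← map_commutatorElement, ← map_mul, ← map_mul, h4]
  · rw [← map_commutatorElement, Ne, map_eq_one_iff f hf]
    exact h5

theorem NA.not_abP {p : ℕ} {G : Type*} [Group G] [Finite G] (h : NA p G) (hab : AbP p G) : False := by
  obtain ⟨x, y, h1, h2, h3, h4, h5⟩ := h
  apply h5
  rw [commutatorElement_eq_one_iff_mul_comm]
  exact hab _ (H51.Tools.isPGroup_closure h1 h2 (H51.Tools.pow_comm_eq_one h1 h3 h4) h3 h4) x
    (subset_closure (by simp)) y (subset_closure (by simp))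

/-- no injective homomorphism -/
theorem not_hom {p : ℕ} {T G : Type*} [Group T] [Group G] [Finite G] (h : NA p T) (hab : AbP p G) (f : T →* G)
    (hf : Function.Injective f) : False := (h.of_injective f hf).not_abP hab

theorem na_he' : NA 7 Spor.He := by
  have h := H58.HeOdd.c7
  simp only [Bool.and_eq_true, Bool.not_eq_true'] at h
  obtain ⟨⟨⟨⟨⟨⟨h1, h2⟩, h3⟩, h4⟩, -⟩, -⟩, h7⟩ := h
  refine ⟨SporadicB.HePerm.wd H58.HeOdd.x7, SporadicB.HePerm.wd H58.HeOdd.y7, ?_, ?_, ?_, ?_, ?_⟩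
  · rw [← H58.HeOdd.wd_pw]; exact FixBN.HeStab.eq_of_chkB h1
  · rw [← H58.HeOdd.wd_pw]; exact FixBN.HeStab.eq_of_chkB h2
  · rw [← H58.HeOdd.wd_cm, ← H58.HeOdd.wd_app, ← H58.HeOdd.wd_app]; exact FixBN.HeStab.eq_of_chkB h3
  · rw [← H58.HeOdd.wd_cm, ← H58.HeOdd.wd_app, ← H58.HeOdd.wd_app]; exact FixBN.HeStab.eq_of_chkB h4
  · rw [← H58.HeOdd.wd_cm, ← H58.HeOdd.wd_nil']; exact H58.HeOdd.ne_of_chkB h7

theorem na_on' : NA 7 Spor.ON := by
  have hs : IsSimpleGroup Spor.ON := S1699.result.1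
  exact ⟨_, _, H51.ONSeven.x7 hs, H51.ONSeven.y7 hs, H51.ONSeven.cx hs, H51.ONSeven.cy hs, H51.ONSeven.c_ne hs⟩

theorem na_he {T : Type*} [Group T] (h : Spor.IsoHe T) : NA 7 T := by
  obtain ⟨e⟩ := h
  exact na_he'.of_injective e.symm.toMonoidHom e.symm.injective

theorem na_on {T : Type*} [Group T] (h : Spor.IsoON T) : NA 7 T := by
  obtain ⟨e⟩ := h
  exact na_on'.of_injective e.symm.toMonoidHom e.symm.injective

theorem row {P : (T : Type) → [Group T] → Prop} {G : Type} [Group G] [Finite G]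
    (hP : ∀ (T : Type) [Group T], P T → NA 7 T) (hab : AbP 7 G) : NoRow P G := by
  intro H N T _ e h hT
  refine not_hom (hP T hT) hab (N.subtype.comp (e.symm.toMonoidHom.comp (Pi.constMonoidHom (Fin 1) T))) ?_
  intro a b hab
  have h1 : e.symm (fun _ => a) = e.symm (fun _ => b) := Subtype.ext hab
  exact congrFun (e.symm.injective h1) 0

section

variable {F : Type} [Field F] [Fintype F]

theorem ab_e6 (h7 : ¬ 7 ∣ Fintype.card F) : AbP 7 ↥(Lie.chevE6.group F) := by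
  have : Fact (Nat.Prime 7) := ⟨by norm_num⟩
  exact H790.ExcAb.E6 (F := F) rfl h7 (by norm_num) (by norm_num)

theorem ab_e7 (h7 : ¬ 7 ∣ Fintype.card F) (h1 : Fintype.card F % 7 ≠ 1) (h6 : Fintype.card F % 7 ≠ 6) :
    AbP 7 ↥(Lie.chevE7.group F) := by
  have : Fact (Nat.Prime 7) := ⟨by norm_num⟩
  exact H790.ExcAb.E7 (F := F) rfl h7 (by norm_num) (by norm_num) (fun _ => ⟨h1, h6⟩)

/-- He in `E₆(q)`, all `q` -/
theorem e6_He (h7 : ¬ 7 ∣ Fintype.card F) : NoRow (fun T _ => Spor.IsoHe T) ↥(Lie.chevE6.group F) :=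
  row (fun _ _ h => na_he h) (ab_e6 h7)

/-- ON in `E₆(q)`, all `q` -/
theorem e6_ON (h7 : ¬ 7 ∣ Fintype.card F) : NoRow (fun T _ => Spor.IsoON T) ↥(Lie.chevE6.group F) :=
  row (fun _ _ h => na_on h) (ab_e6 h7)

theorem e7_He (h7 : ¬ 7 ∣ Fintype.card F) (h1 : Fintype.card F % 7 ≠ 1) (h6 : Fintype.card F % 7 ≠ 6) :
    NoRow (fun T _ => Spor.IsoHe T) ↥(Lie.chevE7.group F) :=
  row (fun _ _ h => na_he h) (ab_e7 h7 h1 h6)

theorem e7_ON (h7 : ¬ 7 ∣ Fintype.card F) (h1 : Fintype.card F % 7 ≠ 1) (h6 : Fintype.card F % 7 ≠ 6) :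
    NoRow (fun T _ => Spor.IsoON T) ↥(Lie.chevE7.group F) :=
  row (fun _ _ h => na_on h) (ab_e7 h7 h1 h6)

end

section rows

variable (F : Type) [Field F] [Fintype F]

theorem e7_2_He [IsSimpleGroup ↥(Lie.chevE7.group F)] (hF : Fintype.card F = 2) :
    NoRow (fun T _ => Spor.IsoHe T) ↥(Lie.chevE7.group F) :=
  e7_He (by rw [hF]; norm_num) (by rw [hF]; norm_num) (by rw [hF]; norm_num)

theorem e7_2_ON [IsSimpleGroup ↥(Lie.chevE7.group F)] (hF : Fintype.card F = 2) :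
    NoRow (fun T _ => Spor.IsoON T) ↥(Lie.chevE7.group F) :=
  e7_ON (by rw [hF]; norm_num) (by rw [hF]; norm_num) (by rw [hF]; norm_num)

theorem e6_2_He [IsSimpleGroup ↥(Lie.chevE6.group F)] (hF : Fintype.card F = 2) :
    NoRow (fun T _ => Spor.IsoHe T) ↥(Lie.chevE6.group F) :=
  e6_He (by rw [hF]; norm_num)

theorem e6_4_ON [IsSimpleGroup ↥(Lie.chevE6.group F)] (hF : Fintype.card F = 4) :
    NoRow (fun T _ => Spor.IsoON T) ↥(Lie.chevE6.group F) :=
  e6_ON (by rw [hF]; norm_num)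

end rows

end Cfsg.Agent.H833.EPX
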